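import Mathlib
import Cfsg.Agent.Lib.InvC2.SpConj
import Cfsg.Agent.Lib.Classical.Symplectic

/-!
Conjugacy of involutions of `Matrix.symplecticGroup` in characteristic two.
-/

set_option autoImplicit false
set_option linter.unusedSectionVars false
set_option linter.unusedVariables false

open scoped Matrix

namespace Cfsg.Agent.Lib.InvC2

open Module Matrix Cfsg.Agent.Lib.Classical

/-- The symplectic group as a type. -/
abbrev SpGp (m : ℕ) (F : Type*) [Field F] : Type _ := ↥(Matrix.symplecticGroup (Fin m) F)

variable {F : Type*} [Field F] [Fintype F] [CharP F 2] {m : ℕ}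

local notation "II" => Fin m ⊕ Fin m
local notation "SpG" => SpGp m F

/-- The form `v ↦ f(v, t v)`. -/
def chi (a : SpG) (v : II → F) : F := Cfsg.sympForm m F v ((a : Matrix II II F) *ᵥ v)

lemma sq_of_order {a : SpG} (h : orderOf a = 2) : a * a = 1 := by
  rw [← pow_two, ← h]
  exact pow_orderOf_eq_one a

lemma matsq {a : SpG} (h : a * a = 1) : (a : Matrix II II F) * (a : Matrix II II F) = 1 := congrArg Subtype.val h

/-- The linear map of an involution. -/
noncomputable def spE (a : SpG) (h : a * a = 1) : (II → F) ≃ₗ[F] (II → F) :=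
  LinearEquiv.ofLinear (Matrix.mulVecLin (a : Matrix II II F)) (Matrix.mulVecLin (a : Matrix II II F))
    (by
      apply LinearMap.ext
      intro x
      simp [Matrix.mulVec_mulVec, matsq h])
    (by
      apply LinearMap.ext
      intro x
      simp [Matrix.mulVec_mulVec, matsq h])

@[simp] lemma spE_apply (a : SpG) (h : a * a = 1) (x : II → F) : spE a h x = (a : Matrix II II F) *ᵥ x := rfl

lemma finrank_RR_spE (a : SpG) (h : a * a = 1) : finrank F (RR (spE a h)) = ((a : Matrix II II F) - 1).rank := by
  have e : NN (spE a h) = ((a : Matrix II II F) - 1).mulVecLin := by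
    apply LinearMap.ext
    intro x
    simp [Matrix.sub_mulVec]
  rw [RR, e, Matrix.rank]

lemma sq_all (c : F) : ∃ d : F, d * d = c := by
  haveI : Fact (Nat.Prime 2) := ⟨Nat.prime_two⟩
  haveI : PerfectRing F 2 := PerfectRing.ofFiniteOfIsReduced 2 F
  refine ⟨(frobeniusEquiv F 2).symm c, ?_⟩
  have := (frobeniusEquiv F 2).apply_symm_apply c
  rw [← pow_two]
  exact this

/-- The classification of the involutions. -/
theorem sp_conj_iff (a b : SpG) (ha : a * a = 1) (hb : b * b = 1) :
    IsConj a b ↔ (((a : Matrix II II F) - 1).rank = ((b : Matrix II II F) - 1).rank ∧ ((∀ v, chi a v = 0) ↔ (∀ v, chi b v = 0))) := by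
  classical
  have h2 : (2 : F) = 0 := CharTwo.two_eq_zero
  constructor
  · intro h
    obtain ⟨c, hc⟩ := isConj_iff.1 h
    have hcm : (c : Matrix II II F) * (a : Matrix II II F) = (b : Matrix II II F) * (c : Matrix II II F) := by
      have : c * a = b * c := by rw [← hc]; group
      exact congrArg Subtype.val this
    have hcc : (c : Matrix II II F) * ((c⁻¹ : SpG) : Matrix II II F) = 1 := by
      have : c * c⁻¹ = 1 := mul_inv_cancel c
      exact congrArg Subtype.val this
    have hcc' : ((c⁻¹ : SpG) : Matrix II II F) * (c : Matrix II II F) = 1 := by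
      have : c⁻¹ * c = 1 := inv_mul_cancel c
      exact congrArg Subtype.val this
    have hdet : IsUnit (c : Matrix II II F).det := by
      apply IsUnit.of_mul_eq_one (((c⁻¹ : SpG) : Matrix II II F).det)
      rw [← Matrix.det_mul, hcc, Matrix.det_one]
    constructor
    · have e : (c : Matrix II II F) * ((a : Matrix II II F) - 1) = ((b : Matrix II II F) - 1) * (c : Matrix II II F) := by
        rw [mul_sub, sub_mul, hcm]
        simp
      have h1 := Matrix.rank_mul_eq_right_of_isUnit_det (c : Matrix II II F) ((a : Matrix II II F) - 1) hdet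
      have h3 := Matrix.rank_mul_eq_left_of_isUnit_det (c : Matrix II II F) ((b : Matrix II II F) - 1) hdet
      rw [← h1, e, h3]
    · have hpres : ∀ (d : SpG) u v, Cfsg.sympForm m F ((d : Matrix II II F) *ᵥ u) ((d : Matrix II II F) *ᵥ v) = Cfsg.sympForm m F u v :=
        fun d => mem_symplecticGroup_iff_preserves.1 d.2
      have key : ∀ v, chi b ((c : Matrix II II F) *ᵥ v) = chi a v := by
        intro v
        rw [chi, chi, Matrix.mulVec_mulVec, ← hcm, ← Matrix.mulVec_mulVec, hpres]
      constructor
      · intro h1 v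
        have e : (c : Matrix II II F) *ᵥ (((c⁻¹ : SpG) : Matrix II II F) *ᵥ v) = v := by
          rw [Matrix.mulVec_mulVec, hcc, Matrix.one_mulVec]
        rw [← e, key]
        exact h1 _
      · intro h1 v
        rw [← key]
        exact h1 _
  · rintro ⟨h1, h3⟩
    have hpres : ∀ (d : SpG) u v, sympBilin m F ((d : Matrix II II F) *ᵥ u) ((d : Matrix II II F) *ᵥ v) = sympBilin m F u v :=
      fun d => mem_symplecticGroup_iff_preserves.1 d.2
    obtain ⟨g, hg, hgc⟩ := symp_conj h2 sq_all (sympBilin m F) sympBilin_isAlt sympBilin_nondegenerate (spE a ha) (spE b hb)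
      (fun u v => hpres a u v) (fun v => by simp [Matrix.mulVec_mulVec, matsq ha])
      (fun u v => hpres b u v) (fun v => by simp [Matrix.mulVec_mulVec, matsq hb])
      (by rw [finrank_RR_spE, finrank_RR_spE, h1]) h3
    set G : Matrix II II F := LinearMap.toMatrix' g.toLinearMap with hG
    have hGv : ∀ v, G *ᵥ v = g v := by
      intro v
      rw [hG, LinearMap.toMatrix'_mulVec]
      rfl
    have hGmem : G ∈ Matrix.symplecticGroup (Fin m) F := by
      rw [mem_symplecticGroup_iff_preserves]
      intro u v
      rw [hGv, hGv]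
      exact hg u v
    have hcomm : G * (a : Matrix II II F) = (b : Matrix II II F) * G := by
      apply Matrix.mulVec_injective
      funext v
      rw [← Matrix.mulVec_mulVec, ← Matrix.mulVec_mulVec, hGv, hGv]
      exact hgc v
    rw [isConj_iff]
    refine ⟨⟨G, hGmem⟩, ?_⟩
    rw [mul_inv_eq_iff_eq_mul]
    exact Subtype.ext hcomm

/-- If `f(v, tv)` vanishes identically the rank is even. -/
theorem even_rank_of_chi (a : SpG) (h : ∀ v, chi a v = 0) : Even ((a : Matrix II II F) - 1).rank := by
  have hJ : IsUnit (Matrix.J (Fin m) F).det := Matrix.isUnit_det_J (Fin m) F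
  rw [← Matrix.rank_mul_eq_right_of_isUnit_det (Matrix.J (Fin m) F) ((a : Matrix II II F) - 1) hJ]
  apply Cfsg.Agent.Lib.KnownSimple.even_rank_of_alternating
  intro v
  have h5 := h v
  have h6 := sympForm_self v
  unfold chi Cfsg.sympForm at h5
  unfold Cfsg.sympForm at h6
  rw [← Matrix.mulVec_mulVec, Matrix.sub_mulVec, Matrix.mulVec_sub, dotProduct_sub, h5]
  simp only [Matrix.one_mulVec, h6, sub_zero]

/-- `f(v, tv) = 0` for all `v` in terms of the number of solutions. -/
lemma chi_all_iff_card (a : SpG) : (∀ v, chi a v = 0) ↔ Nat.card {v : II → F // chi a v = 0} = Nat.card (II → F) := by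
  classical
  constructor
  · intro h
    exact Nat.card_congr (Equiv.subtypeUnivEquiv h)
  · intro h v
    by_contra hv
    have h1 : Nat.card {x : II → F // chi a x = 0} < Nat.card (II → F) := by
      rw [Nat.card_eq_fintype_card, Nat.card_eq_fintype_card]
      exact Fintype.card_subtype_lt hv
    omega

end Cfsg.Agent.Lib.InvC2
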